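import Mathlib

/-!
# Maximality of stabilizers from the sizes of the suborbits, and transfer along an isomorphism
-/

set_option autoImplicit false
set_option linter.unusedSectionVars false

namespace Cfsg.Agent.Lib.G24J2.Abstract

open MulAction

section

variable {H X : Type*} [Group H] [Finite H] [MulAction H X]

/-- The size of an orbit of a subgroup containing the stabilizer divides the size of the orbit of the group. -/
theorem orbit_card_dvd (a : X) (K : Subgroup H) (hK : stabilizer H a ≤ K) :
    (orbit K a).ncard ∣ (orbit H a).ncard := by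
  have h1 := index_stabilizer H a
  have h2 := index_stabilizer K a
  rw [← h1, ← h2]
  have e : stabilizer K a = (stabilizer H a).subgroupOf K := by
    ext x
    simp only [Subgroup.mem_subgroupOf, mem_stabilizer_iff]
    rfl
  rw [e]
  have h3 : ((stabilizer H a).subgroupOf K).index = (stabilizer H a).relIndex K := rfl
  rw [h3]
  exact Subgroup.relIndex_dvd_index_of_le hK

/-- The stabilizer is maximal as soon as the sizes of the classes admit no non-trivial block size. -/
theorem coatom_of_labels [Fintype X] [DecidableEq X] (a : X) (cls : X → ℕ) (k : ℕ) (sz : ℕ → ℕ) (n : ℕ)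
    (hk : ∀ x, cls x < k ↔ x ∈ orbit H a) (h0 : ∀ x, cls x = 0 ↔ x = a)
    (hsz : ∀ j < k, (Finset.univ.filter fun x => cls x = j).card = sz j)
    (htr : ∀ x y, cls x < k → cls x = cls y → ∃ s ∈ stabilizer H a, s • x = y)
    (hnum : ∀ J ∈ (Finset.range k).powerset, 0 ∈ J → (∑ j ∈ J, sz j) ∣ n →
      (∑ j ∈ J, sz j) = 1 ∨ (∑ j ∈ J, sz j) = n)
    (hn : n = ∑ j ∈ Finset.range k, sz j) (h1 : 1 < n) : IsCoatom (stabilizer H a) := by
  classical
  have haD : cls a < k := (hk a).2 (mem_orbit_self a)
  have hcard : ∀ J ⊆ Finset.range k, (Finset.univ.filter fun x => cls x ∈ J).card = ∑ j ∈ J, sz j := by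
    intro J hJ
    rw [Finset.card_eq_sum_card_fiberwise (f := cls) (t := J) (by
      intro x hx
      simpa using hx)]
    apply Finset.sum_congr rfl
    intro j hj
    rw [← hsz j (Finset.mem_range.1 (hJ hj))]
    congr 1
    ext x
    simp only [Finset.mem_filter, Finset.mem_univ, true_and]
    constructor
    · rintro ⟨-, h⟩
      exact h
    · intro h
      exact ⟨h ▸ hj, h⟩
  have horb : (orbit H a).ncard = n := by
    have h2 : orbit H a = ((Finset.univ.filter fun x => cls x ∈ Finset.range k : Finset X) : Set X) := by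
      ext x
      simp [hk x]
    rw [h2, Set.ncard_coe_finset, hcard _ (Finset.Subset.refl _), hn]
  refine ⟨?_, ?_⟩
  · intro htop
    have h2 : orbit H a = {a} := by
      ext x
      simp only [Set.mem_singleton_iff]
      constructor
      · rintro ⟨g, rfl⟩
        have : g ∈ stabilizer H a := by
          rw [htop]
          trivial
        exact this
      · rintro rfl
        exact mem_orbit_self _
    rw [h2, Set.ncard_singleton] at horb
    omega
  · intro K hK
    have hle : stabilizer H a ≤ K := hK.le
    have hdvd := orbit_card_dvd a K hle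
    rw [horb] at hdvd
    set J : Finset ℕ := (Finset.range k).filter fun j => ∃ x ∈ orbit K a, cls x = j with hJ
    have hsubD : ∀ x ∈ orbit K a, cls x < k := by
      rintro x ⟨g, rfl⟩
      exact (hk _).2 ⟨g, rfl⟩
    have hB : orbit K a = ((Finset.univ.filter fun x => cls x ∈ J : Finset X) : Set X) := by
      ext y
      simp only [Finset.coe_filter, Finset.mem_univ, true_and, Set.mem_ofPred_eq]
      constructor
      · intro hy
        simp only [hJ, Finset.mem_filter, Finset.mem_range]
        exact ⟨hsubD y hy, y, hy, rfl⟩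
      · intro hy
        simp only [hJ, Finset.mem_filter, Finset.mem_range] at hy
        obtain ⟨hy1, x, hx, hxy⟩ := hy
        obtain ⟨s, hs, hsx⟩ := htr x y (by rw [hxy]; exact hy1) hxy
        have h3 : s • x ∈ orbit K a := by
          obtain ⟨g, rfl⟩ := hx
          exact ⟨⟨s, hle hs⟩ * g, by
            simp only [mul_smul]
            rfl⟩
        rwa [hsx] at h3
    have hJsub : J ⊆ Finset.range k := Finset.filter_subset _ _
    have hcB : (orbit K a).ncard = ∑ j ∈ J, sz j := by
      rw [hB, Set.ncard_coe_finset, hcard J hJsub]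
    have h0J : 0 ∈ J := by
      simp only [hJ, Finset.mem_filter, Finset.mem_range]
      refine ⟨?_, a, mem_orbit_self a, (h0 a).2 rfl⟩
      have := (h0 a).2 rfl
      omega
    rw [hcB] at hdvd
    rcases hnum J (Finset.mem_powerset.2 hJsub) h0J hdvd with h2 | h2
    · exfalso
      apply hK.not_ge
      intro g hg
      have h3 : (orbit K a).ncard = 1 := by rw [hcB, h2]
      rw [Set.ncard_eq_one] at h3
      obtain ⟨b, hb⟩ := h3
      have h4 : a ∈ orbit K a := mem_orbit_self a
      have h5 : (⟨g, hg⟩ : K) • a ∈ orbit K a := ⟨_, rfl⟩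
      rw [hb] at h4 h5
      have h6 : (⟨g, hg⟩ : K) • a = a := by
        rw [Set.mem_singleton_iff] at h4 h5
        rw [h5, h4]
      exact h6
    · rw [eq_top_iff]
      intro h _
      have h3 : orbit K a = orbit H a := by
        apply Set.eq_of_subset_of_ncard_le
        · rintro x ⟨g, rfl⟩
          exact ⟨(g : H), rfl⟩
        · rw [hcB, h2, horb]
        · exact Set.toFinite _
      have h4 : h • a ∈ orbit K a := by
        rw [h3]
        exact ⟨h, rfl⟩
      obtain ⟨g, hg⟩ := h4
      have h5 : (g : H)⁻¹ * h ∈ stabilizer H a := by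
        rw [mem_stabilizer_iff, mul_smul, ← hg]
        simp [Subgroup.smul_def]
      have h6 := K.mul_mem g.2 (hle h5)
      simpa using h6

/-- The stabilizer of a translate. -/
theorem coatom_smul {a : X} (h : IsCoatom (stabilizer H a)) (g : H) : IsCoatom (stabilizer H (g • a)) := by
  rw [stabilizer_smul_eq_stabilizer_map_conj]
  exact ((MulAut.conj g).mapSubgroup.isCoatom_iff _).2 h

end

section

variable {G X : Type*} [Group G] [MulAction G X]

/-- The conjugates of a point stabilizer meet it in stabilizers. -/
theorem inf_conj_eq (p : X) (x : G) :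
    ((stabilizer G p) ⊓ (stabilizer G p).map (MulAut.conj x).toMonoidHom).subgroupOf (stabilizer G p) =
      stabilizer (stabilizer G p) (x • p) := by
  ext y
  rw [Subgroup.mem_subgroupOf, mem_stabilizer_iff, Subgroup.mem_inf]
  have e : y • (x • p) = (y : G) • (x • p) := rfl
  rw [e]
  constructor
  · rintro ⟨-, z, hz, hzy⟩
    have hz' : z • p = p := hz
    rw [← hzy]
    simp only [MulEquiv.coe_toMonoidHom, MulAut.conj_apply, mul_smul, inv_smul_smul, hz']
  · intro h
    refine ⟨y.2, x⁻¹ * (y : G) * x, ?_, ?_⟩
    · apply SetLike.mem_coe.2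
      rw [mem_stabilizer_iff, mul_smul, mul_smul, h, inv_smul_smul]
    · simp [mul_assoc]

/-- Extreme primitivity from the maximality of the stabilizers of the stabilizer. -/
theorem ep_of (p : X) (hsub : ∀ q : X, q ≠ p → IsCoatom (stabilizer (stabilizer G p) q)) (x : G)
    (hx : x ∉ stabilizer G p) :
    IsCoatom (((stabilizer G p) ⊓ (stabilizer G p).map (MulAut.conj x).toMonoidHom).subgroupOf
      (stabilizer G p)) := by
  rw [inf_conj_eq]
  exact hsub _ hx

end

section

variable {A B : Type*} [Group A] [Group B]

/-- The restriction of an isomorphism to the preimage of a subgroup. -/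
noncomputable def comapEquiv (e : A ≃* B) (H : Subgroup B) : H.comap e.toMonoidHom ≃* H where
  toFun x := ⟨e x, x.2⟩
  invFun y := ⟨e.symm y, by simp [Subgroup.mem_comap]⟩
  left_inv x := by
    ext
    simp
  right_inv y := by
    ext
    simp
  map_mul' x y := Subtype.ext (map_mul e _ _)

/-- Transfer of the extreme primitivity along an isomorphism. -/
theorem transfer (e : A ≃* B) (H : Subgroup B) (hc : IsCoatom H)
    (hx : ∀ x : B, x ∉ H → IsCoatom ((H ⊓ H.map (MulAut.conj x).toMonoidHom).subgroupOf H)) :
    IsCoatom (H.comap e.toMonoidHom) ∧ ∀ x : A, x ∉ H.comap e.toMonoidHom →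
      IsCoatom ((H.comap e.toMonoidHom ⊓ (H.comap e.toMonoidHom).map (MulAut.conj x).toMonoidHom).subgroupOf
        (H.comap e.toMonoidHom)) := by
  refine ⟨(e.comapSubgroup.isCoatom_iff H).2 hc, ?_⟩
  intro x hx'
  have h1 := hx (e x) hx'
  set E := comapEquiv e H with hE
  have h2 : (H.comap e.toMonoidHom ⊓ (H.comap e.toMonoidHom).map (MulAut.conj x).toMonoidHom).subgroupOf
      (H.comap e.toMonoidHom) =
      E.comapSubgroup ((H ⊓ H.map (MulAut.conj (e x)).toMonoidHom).subgroupOf H) := by
    ext y
    have e2 : y ∈ E.comapSubgroup ((H ⊓ H.map (MulAut.conj (e x)).toMonoidHom).subgroupOf H) ↔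
        (e (y : A) ∈ H ∧ e (y : A) ∈ H.map (MulAut.conj (e x)).toMonoidHom) := Iff.rfl
    rw [e2, Subgroup.mem_subgroupOf, Subgroup.mem_inf]
    constructor
    · rintro ⟨h3, z, hz, hzy⟩
      refine ⟨h3, e z, hz, ?_⟩
      rw [← hzy]
      simp
    · rintro ⟨h3, z, hz, hzy⟩
      refine ⟨h3, e.symm z, ?_, ?_⟩
      · show e (e.symm z) ∈ H
        rw [MulEquiv.apply_symm_apply]
        exact hz
      · apply e.injective
        rw [← hzy]
        simp
  rw [h2]
  exact (E.comapSubgroup.isCoatom_iff _).2 h1

end

end Cfsg.Agent.Lib.G24J2.Abstract
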