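import Cfsg.Agent.Lib.FusionSimple2.Codes
import Cfsg.Agent.Lib.J2.TabData
import Cfsg.Agent.Lib.TC.D.SuzChain.S1_Tab
import Cfsg.Agent.Lib.G24J2.Data

/-!
# Kernel checks for the action of `G₂(4)` on `416` points
-/

set_option autoImplicit false
set_option maxRecDepth 100000

namespace Cfsg.Agent.Lib.G24J2

open Cfsg.Agent.Lib.PermComp.Core Cfsg.Agent.Lib.J2.TabData
open Cfsg.Agent.Lib.FusionSimple2.Codes
open Cfsg.Agent.Lib.TC.D.SuzChain.S1_Tab (rels')

local notation "ap" => app 9 511

/-- The points. -/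
noncomputable def rng : List ℕ := List.range 416

/-- Kernel friendly `Nodup`. -/
noncomputable def nodupN : List Nat → Bool :=
  fun l => List.rec true (fun a t ih => ifB (!(memN a t)) ih) l

theorem nodupN_spec {l : List Nat} (h : nodupN l = true) : l.Nodup := by
  induction l with
  | nil => exact List.nodup_nil
  | cons a t ih =>
    have h' : ifB (!(memN a t)) (nodupN t) = true := h
    rw [ifB_eq_true] at h'
    refine List.nodup_cons.2 ⟨?_, ih h'.2⟩
    intro hm
    rw [← memN_eq_true] at hm
    rw [hm] at h'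
    exact Bool.noConfusion h'.1

/-- The image of a point under a word, the last letter acting first. -/
noncomputable def evalW (u : List ℕ) : ℕ → ℕ :=
  List.rec (motive := fun _ => ℕ → ℕ) (fun x => x)
    (fun a _ ih x => force (ih x) fun y => ap (nthN T6 a) y) u

/-- The image of a point under a relator, the first letter acting first. -/
noncomputable def evalR (u : List ℕ) : ℕ → ℕ :=
  List.rec (motive := fun _ => ℕ → ℕ) (fun x => x)
    (fun a _ ih x => force (ap (nthN T6 a) x) ih) u

/-- A word in the letters. -/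
noncomputable def lettersOK (w : List ℕ) : Bool := allL (fun a => Nat.blt a 6) w

/-- The letters are involutions. -/
theorem chk_T : allL (fun c => allL (fun p => ifB (Nat.blt (ap c p) 416) (Nat.beq (ap c (ap c p)) p)) rng) T6 = true := by
  decide +kernel

/-- The relators hold. -/
theorem chk_rels : allL (fun l => allL (fun p => Nat.beq (evalR l p) p) rng) rels' = true := by
  decide +kernel

/-- The orbits of the point stabilizer. -/
noncomputable def lab0 (x : ℕ) : ℕ := app 3 7 lab0C x
/-- The suborbits. -/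
noncomputable def lab1 (x : ℕ) : ℕ := app 3 7 lab1C x
/-- The suborbits. -/
noncomputable def lab2 (x : ℕ) : ℕ := app 3 7 lab2C x

/-- A word of a list. -/
noncomputable def nthW (G : List (List ℕ)) : ℕ → List ℕ :=
  List.rec (motive := fun _ => ℕ → List ℕ) (fun _ => [])
    (fun a _ ih j => Nat.rec a (fun j' _ => ih j') j) G

/-- The words of a list are words in the letters fixing the given points. -/
noncomputable def gensOK (l : List ℕ) (G : List (List ℕ)) : Bool :=
  allL (fun w => ifB (lettersOK w) (allL (fun p => Nat.beq (evalW w p) p) l)) G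

/-- The spanning forest. -/
noncomputable def spanW (G : List (List ℕ)) (lab : ℕ → ℕ) : List (ℕ × ℕ × ℕ) → ℕ → Bool :=
  fun t => List.rec (motive := fun _ => ℕ → Bool) (fun _ => true)
    (fun e _ ih m => ifB (bit m e.2.2) <| ifB (Nat.beq e.1 (evalW (nthW G e.2.1) e.2.2)) <|
      ifB (Nat.beq (lab e.1) (lab e.2.2)) <| ifB (Nat.blt e.2.1 G.length) <| force (setBit m e.1) ih) t

/-- The bit mask of a list. -/
noncomputable def maskL : List ℕ → ℕ :=
  fun l => List.rec 0 (fun a _ ih => setBit ih a) l

/-- All the checks for a level. -/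
noncomputable def levelOK (l : List ℕ) (G : List (List ℕ)) (lab : ℕ → ℕ) (t : List (ℕ × ℕ × ℕ)) (roots : List ℕ)
    (k : ℕ) : Bool :=
  ifB (gensOK l G) <|
  ifB (spanW G lab t (maskL roots)) <|
  ifB (allL (fun r => ifB (Nat.blt r 416) (Nat.beq (nthN roots (lab r)) r)) roots) <|
  allL (fun x => orC (Nat.ble k (lab x)) (bit (treeMem t (maskL roots)) x)) rng

theorem chk_lv0 : levelOK [0] G0 lab0 t0 r0 3 = true := by decide +kernel

theorem chk_lv1 : levelOK [0, 38] G1 lab1 t1 r1 3 = true := by decide +kernel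

theorem chk_lv2 : levelOK [0, 1] G2 lab2 t2 r2 6 = true := by decide +kernel

/-- The labels at the first level. -/
theorem chk_lab0 : allL (fun x => ifB (Nat.blt (lab0 x) 3) (orC (neB (lab0 x) 0) (Nat.beq x 0))) rng = true := by
  decide +kernel

theorem chk_lab1 : allL (fun x => ifB (Bool.rec (Nat.ble 3 (lab1 x)) (Nat.blt (lab1 x) 3) (Nat.beq (lab0 x) 2))
    (orC (neB (lab1 x) 0) (Nat.beq x 38))) rng = true := by
  decide +kernel

theorem chk_lab2 : allL (fun x => ifB (Bool.rec (Nat.ble 6 (lab2 x)) (Nat.blt (lab2 x) 6) (Nat.beq (lab0 x) 1))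
    (orC (neB (lab2 x) 0) (Nat.beq x 1))) rng = true := by
  decide +kernel

theorem chk_base : ifB (Nat.beq (lab0 0) 0) (ifB (Nat.beq (lab0 1) 1) (ifB (Nat.beq (lab0 38) 2)
    (ifB (Nat.beq (lab1 38) 0) (Nat.beq (lab2 1) 0)))) = true := by decide +kernel

theorem chk_w38 : ifB (lettersOK w38) (Nat.beq (evalW w38 0) 38) = true := by decide +kernel

theorem chk_t5 : Nat.beq (ap tau5 0) 1 = true := by decide +kernel

theorem sz0 : ∀ j < 3, (Finset.univ.filter fun x : Fin 416 => lab0 x = j).card = [1, 315, 100].getD j 0 := by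
  decide +kernel

theorem sz1 : ∀ j < 3, (Finset.univ.filter fun x : Fin 416 => lab1 x = j).card = [1, 36, 63].getD j 0 := by
  decide +kernel

theorem sz2 : ∀ j < 6, (Finset.univ.filter fun x : Fin 416 => lab2 x = j).card =
    [1, 10, 32, 32, 80, 160].getD j 0 := by
  decide +kernel

theorem num0 : ∀ J ∈ (Finset.range 3).powerset, 0 ∈ J → (∑ j ∈ J, [1, 315, 100].getD j 0) ∣ 416 →
    (∑ j ∈ J, [1, 315, 100].getD j 0) = 1 ∨ (∑ j ∈ J, [1, 315, 100].getD j 0) = 416 := by
  decide +kernel

theorem num1 : ∀ J ∈ (Finset.range 3).powerset, 0 ∈ J → (∑ j ∈ J, [1, 36, 63].getD j 0) ∣ 100 →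
    (∑ j ∈ J, [1, 36, 63].getD j 0) = 1 ∨ (∑ j ∈ J, [1, 36, 63].getD j 0) = 100 := by
  decide +kernel

theorem num2 : ∀ J ∈ (Finset.range 6).powerset, 0 ∈ J → (∑ j ∈ J, [1, 10, 32, 32, 80, 160].getD j 0) ∣ 315 →
    (∑ j ∈ J, [1, 10, 32, 32, 80, 160].getD j 0) = 1 ∨ (∑ j ∈ J, [1, 10, 32, 32, 80, 160].getD j 0) = 315 := by
  decide +kernel

/-- The words of the generators of the point stabilizer. -/
theorem chk_yW : allL (fun u => ifB (lettersOK u) (ifB (Nat.beq (evalW u 0) 0)
    (allL (fun p => Nat.beq (lab0 (evalW u p)) (lab0 p)) rng))) yW = true := by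
  decide +kernel

/-- The points of the model of the Hall-Janko group. -/
noncomputable def rng315 : List ℕ := List.range 315

theorem chk_sig : ifB (allL (fun i => ifB (Nat.blt (ap sigC i) 416) (Nat.beq (lab0 (ap sigC i)) 1)) rng315)
    (nodupN (rng315.map (ap sigC))) = true := by
  decide +kernel

theorem chk_yT : allL (fun b : ℕ × List ℕ => allL (fun i => Nat.beq (evalW b.2 (ap sigC i)) (ap sigC (ap b.1 i))) rng315)
    (T315.zip yW) = true := by
  decide +kernel

theorem chk_tzip : (T315.zip yW).map Prod.fst = T315 := rfl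
theorem chk_yzip : (T315.zip yW).map Prod.snd = yW := rfl

end Cfsg.Agent.Lib.G24J2
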