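import Cfsg.Agent.Lib.G24J2.Abstract
import Cfsg.Agent.Lib.G24J2.Checks
import Cfsg.Agent.Lib.J2.Order
import Cfsg.Agent.Lib.TC.D.SuzH.Tgt
import Cfsg.Agent.Lib.Chev.FieldCongr

/-!
# `G₂(4)` acts extremely primitively on the cosets of the Hall-Janko group
-/

set_option autoImplicit false
set_option maxRecDepth 100000

namespace Cfsg.Agent.Lib.G24J2

open Cfsg MulAction
open Cfsg.Agent.Lib.PermComp.Core
open Cfsg.Agent.Lib.FusionSimple2.Codes Abstract

local notation "ap" => app 9 511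
local notation "RR" => Rep 9 511 (Equiv.refl (Fin 416))
local notation "PP" => Equiv.Perm (Fin 416)

theorem mem_rng {x : ℕ} : x ∈ rng ↔ x < 416 := List.mem_range

theorem rep_val {c : ℕ} {g : PP} (h : RR c g) (x : Fin 416) : (g x : ℕ) = ap c x := by
  have := h x
  simp only [Equiv.refl_apply] at this
  exact this.symm

theorem all_rng {f g : ℕ → ℕ} (h : allL (fun p => Nat.beq (f p) (g p)) rng = true) {p : ℕ}
    (hp : p < 416) : f p = g p :=
  Nat.eq_of_beq_eq_true ((allL_eq_true _ _).1 h p (mem_rng.2 hp))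

theorem exists_rep {c : ℕ} (hc : c ∈ T6) : ∃ g : PP, RR c g := by
  have h := (allL_eq_true _ _).1 chk_T c hc
  have h1 : ∀ p, p < 416 → ap c p < 416 ∧ ap c (ap c p) = p := fun p hp => by
    have := (ifB_eq_true _ _).1 ((allL_eq_true _ _).1 h p (mem_rng.2 hp))
    exact ⟨Nat.le_of_ble_eq_true this.1, Nat.eq_of_beq_eq_true this.2⟩
  refine ⟨⟨fun x => ⟨ap c x, (h1 x x.2).1⟩, fun x => ⟨ap c x, (h1 x x.2).1⟩,
    fun x => Fin.ext (h1 x x.2).2, fun x => Fin.ext (h1 x x.2).2⟩, ?_⟩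
  intro a
  rfl

open Classical in
/-- The element of a code. -/
noncomputable def dec (c : ℕ) : PP := if h : ∃ g, RR c g then Classical.choose h else 1

theorem rep_dec {c : ℕ} {g : PP} (h : RR c g) : RR c (dec c) := by
  have hex : ∃ g, RR c g := ⟨g, h⟩
  rw [dec, dif_pos hex]
  exact Classical.choose_spec hex

/-- The letters. -/
noncomputable def Lt (c : ℕ) : PP := dec (nthN T6 c)

theorem Lt_rep {c : ℕ} (hc : c < 6) : RR (nthN T6 c) (Lt c) := by
  obtain ⟨g, hg⟩ := exists_rep (nthN_mem T6 c hc)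
  exact rep_dec hg

theorem evalW_cons (a : ℕ) (u : List ℕ) (x : ℕ) :
    evalW (a :: u) x = ap (nthN T6 a) (evalW u x) := by
  show force _ _ = _
  rw [force_eq]
  rfl

theorem evalR_cons (a : ℕ) (u : List ℕ) (x : ℕ) :
    evalR (a :: u) x = evalR u (ap (nthN T6 a) x) := by
  show force _ _ = _
  rw [force_eq]
  rfl

open Cfsg.Agent.Lib.TC.Core in
theorem prodA_val {l : List ℕ} (hl : ∀ z ∈ l, z < 6) (x : Fin 416) :
    ((prodA Lt l) x : ℕ) = evalR l x := by
  induction l generalizing x with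
  | nil => rfl
  | cons z l ih =>
    rw [prodA_cons, evalR_cons, Equiv.Perm.mul_apply, ih (fun y hy => hl y (List.mem_cons_of_mem _ hy)),
      rep_val (Lt_rep (hl z List.mem_cons_self))]

theorem perm_eq_one {g : PP} (h : ∀ x : Fin 416, (g x : ℕ) = x) : g = 1 := by
  ext x
  exact h x

open Cfsg.Agent.Lib.TC.Core Cfsg.Agent.Lib.TC.D.SuzH.Ok Cfsg.Agent.Lib.TC.D.SuzChain.S1_Tab in
theorem Lt_rel : ∀ l ∈ rels', prodA Lt l = 1 := by
  intro l hl
  apply perm_eq_one
  intro x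
  rw [prodA_val (hk l hl)]
  exact all_rng ((allL_eq_true _ _).1 chk_rels l hl) x.2

open Cfsg.Agent.Lib.TC.Core Cfsg.Agent.Lib.TC.Iso Cfsg.Agent.Lib.TC.SubPres Cfsg.Agent.Lib.TC.D.SuzH.Ok
  Cfsg.Agent.Lib.TC.D.SuzChain.S1_Tab in
theorem exists_psi : ∃ ψ : PresentedGroup Rp →* PP, ∀ c, c < Kp.k → ψ (Kp.E Rp c) = Lt c := by
  refine exists_hom_of_letters hv (Cfsg.Agent.Lib.TC.SubPres.hR 6 rels' hk) Lt ?_ Lt_rel
  intro c hc
  have hc' : c < 6 := hc
  apply eq_inv_of_mul_eq_one_left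
  have := Lt_rel [c, c] (hsq c hc')
  simpa [Kp, Cfsg.Agent.Lib.TC.SubPres.K] using this

/-- The hypotheses on the group. -/
structure Model (P : Subgroup PP) : Prop where
  mem : ∀ c < 6, Lt c ∈ P
  card : Nat.card P = 251596800

variable {P : Subgroup PP}

theorem word_in (hP : Model P) (u : List ℕ) (hu : lettersOK u = true) :
    ∃ g ∈ P, ∀ x : Fin 416, (g x : ℕ) = evalW u x := by
  induction u with
  | nil => exact ⟨1, one_mem _, fun x => rfl⟩
  | cons a u ih =>
    have hu' := (allL_eq_true _ _).1 hu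
    obtain ⟨g, hg, hr⟩ := ih ((allL_eq_true _ _).2 (fun b hb => hu' b (List.mem_cons_of_mem _ hb)))
    have ha : a < 6 := Nat.le_of_ble_eq_true (hu' a List.mem_cons_self)
    refine ⟨Lt a * g, mul_mem (hP.mem a ha) hg, fun y => ?_⟩
    rw [evalW_cons, ← hr y, ← rep_val (Lt_rep ha)]
    rfl

/-! ### Spanning forests -/

theorem bit_zero (y : ℕ) : bit 0 y = false := by
  rw [bit_eq_testBit]
  exact Nat.zero_testBit y

theorem bit_maskL (l : List ℕ) (y : ℕ) : bit (maskL l) y = true ↔ y ∈ l := by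
  induction l with
  | nil =>
    have : maskL [] = 0 := rfl
    rw [this, bit_zero]
    simp
  | cons a l ih =>
    have : maskL (a :: l) = setBit (maskL l) a := rfl
    rw [this, bit_setBit, ih, List.mem_cons, or_comm]

theorem nthW_mem (G : List (List ℕ)) : ∀ j, j < G.length → nthW G j ∈ G := by
  induction G with
  | nil => intro j hj; simp at hj
  | cons a G ih =>
    intro j hj
    cases j with
    | zero => exact List.mem_cons_self
    | succ j => exact List.mem_cons_of_mem _ (ih j (by simpa using hj))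

theorem spanW_cons (G : List (List ℕ)) (lab : ℕ → ℕ) (e : ℕ × ℕ × ℕ) (t : List (ℕ × ℕ × ℕ)) (m : ℕ) :
    spanW G lab (e :: t) m = ifB (bit m e.2.2) (ifB (Nat.beq e.1 (evalW (nthW G e.2.1) e.2.2))
      (ifB (Nat.beq (lab e.1) (lab e.2.2)) (ifB (Nat.blt e.2.1 G.length) (force (setBit m e.1) (spanW G lab t))))) := rfl

theorem treeMem_cons (e : ℕ × ℕ × ℕ) (t : List (ℕ × ℕ × ℕ)) (m : ℕ) :
    treeMem (e :: t) m = treeMem t (setBit m e.1) := by
  show force _ _ = _
  rw [force_eq]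
  rfl

theorem span_reach {G : List (List ℕ)} {lab : ℕ → ℕ} {R : ℕ → Prop}
    (hstep : ∀ c < G.length, ∀ p, R p → lab (evalW (nthW G c) p) = lab p → R (evalW (nthW G c) p)) :
    ∀ (t : List (ℕ × ℕ × ℕ)) (m : ℕ), spanW G lab t m = true → (∀ y, bit m y = true → R y) →
      ∀ y, bit (treeMem t m) y = true → R y := by
  intro t
  induction t with
  | nil =>
    intro m _ hm y hy
    exact hm y hy
  | cons e t ih =>
    intro m hs hm y hy
    rw [spanW_cons, force_eq] at hs
    simp only [ifB_eq_true] at hs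
    obtain ⟨h1, h2, h3, h4, h5⟩ := hs
    rw [treeMem_cons] at hy
    refine ih _ h5 ?_ y hy
    intro z hz
    rw [bit_setBit] at hz
    rcases hz with hz | rfl
    · exact hm z hz
    · have e1 := Nat.eq_of_beq_eq_true h2
      have e2 := Nat.eq_of_beq_eq_true h3
      rw [e1] at e2 ⊢
      exact hstep _ (Nat.le_of_ble_eq_true h4) _ (hm _ h1) e2

theorem level_htr {Q : Subgroup PP} {l : List ℕ} {G : List (List ℕ)} {lab : ℕ → ℕ}
    {t : List (ℕ × ℕ × ℕ)} {roots : List ℕ} {k : ℕ} (h : levelOK l G lab t roots k = true)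
    (hG : ∀ u ∈ G, (∀ p ∈ l, evalW u p = p) → lettersOK u = true →
      ∃ g ∈ Q, ∀ x : Fin 416, (g x : ℕ) = evalW u x) :
    ∀ x y : Fin 416, lab x < k → lab x = lab y → ∃ s ∈ Q, s x = y := by
  simp only [levelOK, ifB_eq_true] at h
  obtain ⟨h1, h2, h3, h4⟩ := h
  have hgen : ∀ c < G.length, ∃ g ∈ Q, ∀ x : Fin 416, (g x : ℕ) = evalW (nthW G c) x := by
    intro c hc
    have hu := nthW_mem G c hc
    have h5 := (ifB_eq_true _ _).1 ((allL_eq_true _ _).1 h1 _ hu)
    exact hG _ hu (fun p hp => Nat.eq_of_beq_eq_true ((allL_eq_true _ _).1 h5.2 p hp)) h5.1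
  let R : ℕ → Prop := fun y => ∃ hy : y < 416, ∃ s ∈ Q, ∃ r : Fin 416, (r : ℕ) = nthN roots (lab y) ∧
    s r = ⟨y, hy⟩
  have hreach : ∀ y, bit (treeMem t (maskL roots)) y = true → R y := by
    refine span_reach ?_ t _ h2 ?_
    · rintro c hc p ⟨hp, s, hs, r, hr, hsr⟩ hlab
      obtain ⟨g, hg, hgv⟩ := hgen c hc
      have hv := hgv ⟨p, hp⟩
      have hlt : evalW (nthW G c) p < 416 := by
        rw [← hv]
        exact (g ⟨p, hp⟩).2
      refine ⟨hlt, g * s, mul_mem hg hs, r, by rw [hlab]; exact hr, ?_⟩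
      apply Fin.ext
      rw [Equiv.Perm.mul_apply, hsr]
      exact hv
    · intro y hy
      rw [bit_maskL] at hy
      have h6 := (ifB_eq_true _ _).1 ((allL_eq_true _ _).1 h3 y hy)
      have hlt : y < 416 := Nat.le_of_ble_eq_true h6.1
      exact ⟨hlt, 1, one_mem _, ⟨y, hlt⟩, (Nat.eq_of_beq_eq_true h6.2).symm, rfl⟩
  have hall : ∀ x : Fin 416, lab x < k → R x := by
    intro x hx
    apply hreach
    have h6 := (allL_eq_true _ _).1 h4 x (mem_rng.2 x.2)
    rw [orC_eq_true] at h6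
    rcases h6 with h6 | h6
    · have := Nat.le_of_ble_eq_true h6
      omega
    · exact h6
  intro x y hx hxy
  obtain ⟨_, s, hs, r, hr, hsr⟩ := hall x hx
  obtain ⟨_, s', hs', r', hr', hsr'⟩ := hall y (by rw [← hxy]; exact hx)
  have hsr0 : s r = x := hsr
  have hsr1 : s' r' = y := hsr'
  have hrr : r = r' := by
    apply Fin.ext
    rw [hr, hr', hxy]
  subst hrr
  refine ⟨s' * s⁻¹, mul_mem hs' (inv_mem hs), ?_⟩
  have e1 : s⁻¹ x = r := by
    rw [Equiv.Perm.inv_eq_iff_eq]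
    exact hsr0.symm
  rw [Equiv.Perm.mul_apply, e1, hsr1]

/-! ### The points -/

/-- The base point. -/
def p0 : Fin 416 := ⟨0, by norm_num⟩
/-- A point of the orbit of length `315`. -/
def p1 : Fin 416 := ⟨1, by norm_num⟩
/-- A point of the orbit of length `100`. -/
def p38 : Fin 416 := ⟨38, by norm_num⟩

/-- The point stabilizer. -/
def Q0 (P : Subgroup PP) : Subgroup PP := P ⊓ stabilizer PP p0
/-- The stabilizer of a point of the orbit of length `100`. -/
def Q1 (P : Subgroup PP) : Subgroup PP := Q0 P ⊓ stabilizer PP p38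
/-- The stabilizer of a point of the orbit of length `315`. -/
def Q2 (P : Subgroup PP) : Subgroup PP := Q0 P ⊓ stabilizer PP p1

theorem base_vals : lab0 0 = 0 ∧ lab0 1 = 1 ∧ lab0 38 = 2 ∧ lab1 38 = 0 ∧ lab2 1 = 0 := by
  have h := chk_base
  simp only [ifB_eq_true] at h
  obtain ⟨a, b, c, d, e⟩ := h
  exact ⟨Nat.eq_of_beq_eq_true a, Nat.eq_of_beq_eq_true b, Nat.eq_of_beq_eq_true c,
    Nat.eq_of_beq_eq_true d, Nat.eq_of_beq_eq_true e⟩

theorem htr0 (hP : Model P) : ∀ x y : Fin 416, lab0 x < 3 → lab0 x = lab0 y → ∃ s ∈ Q0 P, s x = y := by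
  refine level_htr chk_lv0 ?_
  intro u _ hu hl
  obtain ⟨g, hg, hv⟩ := word_in hP u hl
  refine ⟨g, ⟨hg, ?_⟩, hv⟩
  apply Fin.ext
  show ((g p0 : Fin 416) : ℕ) = 0
  rw [hv]
  exact hu 0 (by simp)

theorem htr1 (hP : Model P) : ∀ x y : Fin 416, lab1 x < 3 → lab1 x = lab1 y → ∃ s ∈ Q1 P, s x = y := by
  refine level_htr chk_lv1 ?_
  intro u _ hu hl
  obtain ⟨g, hg, hv⟩ := word_in hP u hl
  refine ⟨g, ⟨⟨hg, ?_⟩, ?_⟩, hv⟩
  · apply Fin.ext
    show ((g p0 : Fin 416) : ℕ) = 0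
    rw [hv]
    exact hu 0 (by simp)
  · apply Fin.ext
    show ((g p38 : Fin 416) : ℕ) = 38
    rw [hv]
    exact hu 38 (by simp)

theorem htr2 (hP : Model P) : ∀ x y : Fin 416, lab2 x < 6 → lab2 x = lab2 y → ∃ s ∈ Q2 P, s x = y := by
  refine level_htr chk_lv2 ?_
  intro u _ hu hl
  obtain ⟨g, hg, hv⟩ := word_in hP u hl
  refine ⟨g, ⟨⟨hg, ?_⟩, ?_⟩, hv⟩
  · apply Fin.ext
    show ((g p0 : Fin 416) : ℕ) = 0
    rw [hv]
    exact hu 0 (by simp)
  · apply Fin.ext
    show ((g p1 : Fin 416) : ℕ) = 1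
    rw [hv]
    exact hu 1 (by simp)

theorem lab0_lt (x : Fin 416) : lab0 x < 3 := by
  have h := (ifB_eq_true _ _).1 ((allL_eq_true _ _).1 chk_lab0 x (mem_rng.2 x.2))
  exact Nat.le_of_ble_eq_true h.1

theorem lab0_zero (x : Fin 416) : lab0 x = 0 ↔ x = p0 := by
  constructor
  · intro h0
    have h := (ifB_eq_true _ _).1 ((allL_eq_true _ _).1 chk_lab0 x (mem_rng.2 x.2))
    rw [orC_eq_true] at h
    rcases h.2 with h1 | h1
    · exact absurd h0 (neB_spec h1)
    · exact Fin.ext (Nat.eq_of_beq_eq_true h1)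
  · rintro rfl
    exact base_vals.1

theorem lab1_iff (x : Fin 416) : lab1 x < 3 ↔ lab0 x = 2 := by
  have h := (ifB_eq_true _ _).1 ((allL_eq_true _ _).1 chk_lab1 x (mem_rng.2 x.2))
  have h1 := h.1
  cases hb : Nat.beq (lab0 x) 2 with
  | false =>
    rw [hb] at h1
    have h2 : 3 ≤ lab1 x := Nat.le_of_ble_eq_true h1
    have h3 : lab0 x ≠ 2 := by
      intro e
      rw [e] at hb
      exact Bool.noConfusion hb
    constructor
    · intro h4
      omega
    · intro h4
      exact absurd h4 h3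
  | true =>
    rw [hb] at h1
    have h2 : lab1 x < 3 := Nat.le_of_ble_eq_true h1
    exact ⟨fun _ => Nat.eq_of_beq_eq_true hb, fun _ => h2⟩

theorem lab1_zero (x : Fin 416) : lab1 x = 0 ↔ x = p38 := by
  constructor
  · intro h0
    have h := (ifB_eq_true _ _).1 ((allL_eq_true _ _).1 chk_lab1 x (mem_rng.2 x.2))
    rw [orC_eq_true] at h
    rcases h.2 with h1 | h1
    · exact absurd h0 (neB_spec h1)
    · exact Fin.ext (Nat.eq_of_beq_eq_true h1)
  · rintro rfl
    exact base_vals.2.2.2.1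

theorem lab2_iff (x : Fin 416) : lab2 x < 6 ↔ lab0 x = 1 := by
  have h := (ifB_eq_true _ _).1 ((allL_eq_true _ _).1 chk_lab2 x (mem_rng.2 x.2))
  have h1 := h.1
  cases hb : Nat.beq (lab0 x) 1 with
  | false =>
    rw [hb] at h1
    have h2 : 6 ≤ lab2 x := Nat.le_of_ble_eq_true h1
    have h3 : lab0 x ≠ 1 := by
      intro e
      rw [e] at hb
      exact Bool.noConfusion hb
    constructor
    · intro h4
      omega
    · intro h4
      exact absurd h4 h3
  | true =>
    rw [hb] at h1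
    have h2 : lab2 x < 6 := Nat.le_of_ble_eq_true h1
    exact ⟨fun _ => Nat.eq_of_beq_eq_true hb, fun _ => h2⟩

theorem lab2_zero (x : Fin 416) : lab2 x = 0 ↔ x = p1 := by
  constructor
  · intro h0
    have h := (ifB_eq_true _ _).1 ((allL_eq_true _ _).1 chk_lab2 x (mem_rng.2 x.2))
    rw [orC_eq_true] at h
    rcases h.2 with h1 | h1
    · exact absurd h0 (neB_spec h1)
    · exact Fin.ext (Nat.eq_of_beq_eq_true h1)
  · rintro rfl
    exact base_vals.2.2.2.2

/-! ### Transitivity and maximality of the point stabilizer -/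

theorem exists_trans (hP : Model P) (x : Fin 416) : ∃ g ∈ P, g p0 = x := by
  have hlt := lab0_lt x
  have hcases : lab0 x = 0 ∨ lab0 x = 1 ∨ lab0 x = 2 := by omega
  rcases hcases with h | h | h
  · exact ⟨1, one_mem _, ((lab0_zero x).1 h).symm⟩
  · obtain ⟨s, hs, hsx⟩ := htr0 hP p1 x (by rw [show lab0 p1 = 1 from base_vals.2.1]; norm_num)
      (by rw [h]; exact base_vals.2.1)
    refine ⟨s * Lt 5, mul_mem hs.1 (hP.mem 5 (by norm_num)), ?_⟩
    rw [Equiv.Perm.mul_apply, ← hsx]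
    congr 1
    apply Fin.ext
    rw [rep_val (Lt_rep (by norm_num))]
    exact Nat.eq_of_beq_eq_true chk_t5
  · obtain ⟨s, hs, hsx⟩ := htr0 hP p38 x (by rw [show lab0 p38 = 2 from base_vals.2.2.1]; norm_num)
      (by rw [h]; exact base_vals.2.2.1)
    have hw := (ifB_eq_true _ _).1 chk_w38
    obtain ⟨g, hg, hv⟩ := word_in hP w38 hw.1
    refine ⟨s * g, mul_mem hs.1 hg, ?_⟩
    rw [Equiv.Perm.mul_apply, ← hsx]
    congr 1
    apply Fin.ext
    show ((g p0 : Fin 416) : ℕ) = 38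
    rw [hv]
    exact Nat.eq_of_beq_eq_true hw.2

theorem orbit_top (hP : Model P) (x : Fin 416) : x ∈ orbit P p0 := by
  obtain ⟨g, hg, h⟩ := exists_trans hP x
  exact ⟨⟨g, hg⟩, h⟩

theorem coatom0 (hP : Model P) : IsCoatom (stabilizer P p0) := by
  refine coatom_of_labels p0 (fun x => lab0 x) 3 (fun j => [1, 315, 100].getD j 0) 416 ?_ lab0_zero sz0 ?_
    num0 (by decide) (by norm_num)
  · intro x
    exact ⟨fun _ => orbit_top hP x, fun _ => lab0_lt x⟩
  · intro x y hx hxy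
    obtain ⟨s, hs, h⟩ := htr0 hP x y hx hxy
    exact ⟨⟨s, hs.1⟩, hs.2, h⟩

theorem card_stab (hP : Model P) : Nat.card (stabilizer P p0) = 604800 := by
  have h1 := index_stabilizer P p0
  have h2 : orbit P p0 = Set.univ := Set.eq_univ_of_forall (orbit_top hP)
  rw [h2, Set.ncard_univ, Nat.card_fin] at h1
  have h3 := Subgroup.card_mul_index (stabilizer P p0)
  rw [h1, hP.card] at h3
  omega


/-! ### The point stabilizer is the Hall-Janko group -/

/-- The elements of the words `yW`. -/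
def YS (P : Subgroup PP) : Set PP := {g | g ∈ P ∧ ∃ u ∈ yW, ∀ x : Fin 416, (g x : ℕ) = evalW u x}

/-- The subgroup generated by the elements of the words `yW`. -/
def G₀ (P : Subgroup PP) : Subgroup PP := Subgroup.closure (YS P)

/-- The permutations preserving the labels. -/
def LabPres : Subgroup PP where
  carrier := {g | ∀ x : Fin 416, lab0 (g x) = lab0 x}
  one_mem' := fun _ => rfl
  mul_mem' := by
    intro a b ha hb x
    rw [Equiv.Perm.mul_apply, ha, hb]
  inv_mem' := by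
    intro a ha x
    have := ha (a⁻¹ x)
    rw [show a (a⁻¹ x) = x by simp] at this
    exact this.symm

theorem YS_spec {g : PP} (hg : g ∈ YS P) : g ∈ P ∧ g ∈ stabilizer PP p0 ∧ g ∈ LabPres := by
  obtain ⟨h1, u, hu, hv⟩ := hg
  have h2 := (ifB_eq_true _ _).1 ((allL_eq_true _ _).1 chk_yW u hu)
  have h3 := (ifB_eq_true _ _).1 h2.2
  refine ⟨h1, ?_, ?_⟩
  · apply Fin.ext
    show ((g p0 : Fin 416) : ℕ) = 0
    rw [hv]
    exact Nat.eq_of_beq_eq_true h3.1
  · intro x
    rw [hv]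
    exact all_rng h3.2 x.2

theorem G₀_le_P : G₀ P ≤ P := (Subgroup.closure_le _).2 fun _ hg => (YS_spec hg).1
theorem G₀_le_stab : G₀ P ≤ stabilizer PP p0 := (Subgroup.closure_le _).2 fun _ hg => (YS_spec hg).2.1
theorem G₀_le_lab : G₀ P ≤ LabPres := (Subgroup.closure_le _).2 fun _ hg => (YS_spec hg).2.2

/-- The orbit of length `315`, as an invariant set of `G₀`. -/
def Y1 (P : Subgroup PP) : SubMulAction (G₀ P) (Fin 416) where
  carrier := {x | lab0 x = 1}
  smul_mem' := by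
    intro g x hx
    have h : lab0 ((g : PP) x) = lab0 x := G₀_le_lab g.2 x
    show lab0 ((g : PP) x) = 1
    rw [h]
    exact hx

theorem sig_spec (i : Fin 315) : ap sigC i < 416 ∧ lab0 (ap sigC i) = 1 := by
  have h := (ifB_eq_true _ _).1 chk_sig
  have h1 := (ifB_eq_true _ _).1 ((allL_eq_true _ _).1 h.1 i (List.mem_range.2 i.2))
  exact ⟨Nat.le_of_ble_eq_true h1.1, Nat.eq_of_beq_eq_true h1.2⟩

/-- The numbering of the orbit of length `315`. -/
def sigF (P : Subgroup PP) (i : Fin 315) : Y1 P :=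
  ⟨⟨ap sigC i, (sig_spec i).1⟩, (sig_spec i).2⟩

theorem sigF_bij : Function.Bijective (sigF P) := by
  have hinj : Function.Injective (sigF P) := by
    intro i j h
    have h1 : ap sigC i = ap sigC j := congrArg (fun z : Y1 P => ((z : Fin 416) : ℕ)) h
    have h2 := nodupN_spec ((ifB_eq_true _ _).1 chk_sig).2
    exact Fin.ext (List.inj_on_of_nodup_map h2 (List.mem_range.2 i.2) (List.mem_range.2 j.2) h1)
  apply hinj.bijective_of_nat_card_le
  rw [Nat.card_fin]
  have e : Nat.card (Y1 P) = (Finset.univ.filter fun x : Fin 416 => lab0 x = 1).card := by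
    rw [Nat.card_congr (Equiv.subtypeEquivRight (p := fun x => x ∈ Y1 P) (q := fun x : Fin 416 => lab0 x = 1)
      (fun x => Iff.rfl)), Nat.card_eq_fintype_card, Fintype.card_subtype]
  rw [e, sz0 1 (by norm_num)]
  rfl

/-- The numbering of the orbit of length `315`. -/
noncomputable def sigE (P : Subgroup PP) : Fin 315 ≃ Y1 P := Equiv.ofBijective _ sigF_bij

/-- The action of `G₀` on the points of the model of the Hall-Janko group. -/
noncomputable def res (P : Subgroup PP) : G₀ P →* Equiv.Perm (Fin 315) :=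
  (sigE P).symm.permCongrHom.toMonoidHom.comp (MulAction.toPermHom (G₀ P) (Y1 P))

theorem res_eq (g : G₀ P) (g' : Equiv.Perm (Fin 315))
    (h : ∀ i : Fin 315, (g : PP) ⟨ap sigC i, (sig_spec i).1⟩ = ⟨ap sigC (g' i), (sig_spec (g' i)).1⟩) : res P g = g' := by
  ext i
  have h1 : res P g i = (sigE P).symm (g • sigE P i) := rfl
  have h2 : g • sigE P i = sigE P (g' i) := by
    apply Subtype.ext
    exact h i
  rw [h1, h2, Equiv.symm_apply_apply]

open Cfsg.Agent.Lib.J2 TabData in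
/-- A generator of the model of the Hall-Janko group comes from an element of `G₀`. -/
theorem exists_of_pair (hP : Model P) {b : ℕ × List ℕ} (hb : b ∈ T315.zip yW) (g' : Equiv.Perm (Fin 315))
    (hr : Rep 9 511 (Equiv.refl (Fin 315)) b.1 g') :
    ∃ (g : PP) (hg : g ∈ G₀ P), g ∈ YS P ∧ res P ⟨g, hg⟩ = g' ∧ ∀ x : Fin 416, (g x : ℕ) = evalW b.2 x := by
  have hu : b.2 ∈ yW := by
    rw [← chk_yzip]
    exact List.mem_map.2 ⟨b, hb, rfl⟩
  have h2 := (ifB_eq_true _ _).1 ((allL_eq_true _ _).1 chk_yW _ hu)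
  obtain ⟨g, hg, hv⟩ := word_in hP b.2 h2.1
  have hY : g ∈ YS P := ⟨hg, b.2, hu, hv⟩
  refine ⟨g, Subgroup.subset_closure hY, hY, ?_, hv⟩
  apply res_eq
  intro i
  apply Fin.ext
  rw [hv]
  have h3 := Nat.eq_of_beq_eq_true ((allL_eq_true _ _).1 ((allL_eq_true _ _).1 chk_yT b hb) i (List.mem_range.2 i.2))
  rw [h3]
  have h4 := hr i
  simp only [Equiv.refl_apply] at h4
  rw [h4]

open Cfsg.Agent.Lib.J2 TabData in
theorem res_mem (g : G₀ P) : res P g ∈ H315 := by
  obtain ⟨g, hg⟩ := g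
  induction hg using Subgroup.closure_induction with
  | mem x hx =>
    obtain ⟨h0, u, hu, hv⟩ := id hx
    rw [← chk_yzip] at hu
    obtain ⟨b, hb, rfl⟩ := List.mem_map.1 hu
    have hc : b.1 ∈ T315 := by
      rw [← chk_tzip]
      exact List.mem_map.2 ⟨b, hb, rfl⟩
    obtain ⟨a, ha⟩ := piR_gens b.1 hc
    have h1 : res P ⟨x, Subgroup.subset_closure hx⟩ = piR a := by
      apply res_eq
      intro i
      apply Fin.ext
      rw [hv]
      have h3 := Nat.eq_of_beq_eq_true ((allL_eq_true _ _).1 ((allL_eq_true _ _).1 chk_yT b hb) i (List.mem_range.2 i.2))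
      rw [h3]
      have h4 := ha i
      simp only [Equiv.refl_apply] at h4
      rw [h4]
    rw [h1]
    exact H_of_rep hc ha
  | one =>
    have e : (⟨1, one_mem _⟩ : G₀ P) = 1 := rfl
    rw [e, map_one]
    exact one_mem _
  | mul a b ha hb iha ihb =>
    have e : (⟨a * b, mul_mem ha hb⟩ : G₀ P) = ⟨a, ha⟩ * ⟨b, hb⟩ := rfl
    rw [e, map_mul]
    exact mul_mem iha ihb
  | inv a ha iha =>
    have e : (⟨a⁻¹, inv_mem ha⟩ : G₀ P) = (⟨a, ha⟩ : G₀ P)⁻¹ := rfl
    rw [e, map_inv]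
    exact inv_mem iha

open Cfsg.Agent.Lib.J2 TabData in
theorem res_surj (hP : Model P) (t : Equiv.Perm (Fin 315)) (ht : t ∈ H315) : ∃ g : G₀ P, res P g = t := by
  have h : H315 ≤ (res P).range := by
    apply (Subgroup.closure_le _).2
    rintro t ⟨c, hc, hr⟩
    rw [← chk_tzip] at hc
    obtain ⟨b, hb, rfl⟩ := List.mem_map.1 hc
    obtain ⟨g, hg, -, h1, -⟩ := exists_of_pair hP hb t hr
    exact ⟨⟨g, hg⟩, h1⟩
  exact h ht

/-- The image in the permutation group of the stabilizer. -/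
noncomputable def Hp (P : Subgroup PP) : Subgroup PP := (stabilizer P p0).map P.subtype

theorem G₀_eq (hP : Model P) : G₀ P = Hp P := by
  have hle : G₀ P ≤ Hp P := by
    intro g hg
    exact ⟨⟨g, G₀_le_P hg⟩, G₀_le_stab hg, rfl⟩
  apply Subgroup.eq_of_le_of_card_ge hle
  have h1 : Nat.card (Hp P) = 604800 := by
    rw [Hp, Subgroup.card_map_of_injective P.subtype_injective, card_stab hP]
  rw [h1]
  have hs : Function.Surjective ((res P).codRestrict _ res_mem) := by
    rintro ⟨t, ht⟩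
    obtain ⟨g, hg⟩ := res_surj hP t ht
    exact ⟨g, Subtype.ext hg⟩
  have h2 := Nat.card_le_card_of_surjective _ hs
  rwa [Cfsg.Agent.Lib.J2.card_H315] at h2

theorem lab_pres (hP : Model P) (h : stabilizer P p0) (x : Fin 416) :
    lab0 (h • x : Fin 416) = lab0 x := by
  have h1 : ((h : P) : PP) ∈ G₀ P := by
    rw [G₀_eq hP]
    exact ⟨h, h.2, rfl⟩
  exact G₀_le_lab h1 x

open Cfsg.Agent.Lib.J2 TabData in
/-- The point stabilizer is the Hall-Janko group. -/
theorem iso_J2 (hP : Model P) : Spor.IsoJ2 (stabilizer P p0) := by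
  have hs : Function.Surjective ((res P).codRestrict _ res_mem) := by
    rintro ⟨t, ht⟩
    obtain ⟨g, hg⟩ := res_surj hP t ht
    exact ⟨g, Subtype.ext hg⟩
  have hcard : Nat.card (G₀ P) = Nat.card H315 := by
    rw [G₀_eq hP, Cfsg.Agent.Lib.J2.card_H315, Hp, Subgroup.card_map_of_injective P.subtype_injective, card_stab hP]
  have hb : Function.Bijective ((res P).codRestrict _ res_mem) :=
    (Nat.bijective_iff_surjective_and_card _).2 ⟨hs, hcard⟩
  have e1 : G₀ P ≃* H315 := MulEquiv.ofBijective _ hb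
  have e2 : G₀ P ≃* Hp P := MulEquiv.subgroupCongr (G₀_eq hP)
  have e3 : stabilizer P p0 ≃* Hp P := (stabilizer P p0).equivMapOfInjective P.subtype P.subtype_injective
  exact ⟨e3.trans (e2.symm.trans (e1.trans j2Equiv.symm))⟩

/-! ### The suborbits -/

/-- An element of the point stabilizer. -/
def toH (g : PP) (hg : g ∈ Q0 P) : stabilizer P p0 := ⟨⟨g, hg.1⟩, hg.2⟩

theorem coatom1 (hP : Model P) : IsCoatom (stabilizer (stabilizer P p0) p38) := by
  refine coatom_of_labels p38 (fun x => lab1 x) 3 (fun j => [1, 36, 63].getD j 0) 100 ?_ lab1_zero sz1 ?_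
    num1 (by decide) (by norm_num)
  · intro x
    rw [lab1_iff]
    constructor
    · intro h
      obtain ⟨s, hs, hsx⟩ := htr0 hP p38 x (by rw [show lab0 p38 = 2 from base_vals.2.2.1]; norm_num)
        (by rw [h]; exact base_vals.2.2.1)
      exact ⟨toH s hs, hsx⟩
    · rintro ⟨h, rfl⟩
      show lab0 (h • p38 : Fin 416) = 2
      rw [lab_pres hP]
      exact base_vals.2.2.1
  · intro x y hx hxy
    obtain ⟨s, hs, h⟩ := htr1 hP x y hx hxy
    exact ⟨toH s hs.1, hs.2, h⟩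

theorem coatom2 (hP : Model P) : IsCoatom (stabilizer (stabilizer P p0) p1) := by
  refine coatom_of_labels p1 (fun x => lab2 x) 6 (fun j => [1, 10, 32, 32, 80, 160].getD j 0) 315 ?_ lab2_zero sz2 ?_
    num2 (by decide) (by norm_num)
  · intro x
    rw [lab2_iff]
    constructor
    · intro h
      obtain ⟨s, hs, hsx⟩ := htr0 hP p1 x (by rw [show lab0 p1 = 1 from base_vals.2.1]; norm_num)
        (by rw [h]; exact base_vals.2.1)
      exact ⟨toH s hs, hsx⟩
    · rintro ⟨h, rfl⟩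
      show lab0 (h • p1 : Fin 416) = 1
      rw [lab_pres hP]
      exact base_vals.2.1
  · intro x y hx hxy
    obtain ⟨s, hs, h⟩ := htr2 hP x y hx hxy
    exact ⟨toH s hs.1, hs.2, h⟩

theorem hsub (hP : Model P) (q : Fin 416) (hq : q ≠ p0) : IsCoatom (stabilizer (stabilizer P p0) q) := by
  have hlt := lab0_lt q
  have h0 : lab0 q ≠ 0 := fun h => hq ((lab0_zero q).1 h)
  have hcases : lab0 q = 1 ∨ lab0 q = 2 := by omega
  rcases hcases with h | h
  · obtain ⟨s, hs, hsx⟩ := htr0 hP p1 q (by rw [show lab0 p1 = 1 from base_vals.2.1]; norm_num)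
      (by rw [h]; exact base_vals.2.1)
    have e : q = toH s hs • p1 := hsx.symm
    rw [e]
    exact coatom_smul (coatom2 hP) _
  · obtain ⟨s, hs, hsx⟩ := htr0 hP p38 q (by rw [show lab0 p38 = 2 from base_vals.2.2.1]; norm_num)
      (by rw [h]; exact base_vals.2.2.1)
    have e : q = toH s hs • p38 := hsx.symm
    rw [e]
    exact coatom_smul (coatom1 hP) _

/-! ### The group -/

open Cfsg.Agent.Lib.TC.D.SuzH.Ok Cfsg.Agent.Lib.TC.D.SuzH.Tgt in
/-- The group `G₂(4)` as a permutation group of degree `416`. -/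
theorem exists_model : ∃ P : Subgroup PP, Model P ∧ Nonempty (PresentedGroup Rp ≃* P) := by
  obtain ⟨ψ, hψ⟩ := exists_psi
  have hker : Function.Injective ψ := by
    rcases (Subgroup.Normal.eq_bot_or_eq_top (inferInstance : ψ.ker.Normal)) with h | h
    · exact (MonoidHom.ker_eq_bot_iff ψ).1 h
    · exfalso
      have h2 : Kp.E Rp 5 ∈ ψ.ker := by
        rw [h]
        trivial
      rw [MonoidHom.mem_ker, hψ 5 (by decide)] at h2
      have h3 := rep_val (Lt_rep (c := 5) (by norm_num)) p0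
      rw [h2] at h3
      have h4 : (0 : ℕ) = ap (nthN T6 5) 0 := h3
      have h5 := Nat.eq_of_beq_eq_true chk_t5
      have h6 : ap (nthN T6 5) 0 = ap tau5 0 := rfl
      rw [h6, h5] at h4
      exact absurd h4 (by norm_num)
  refine ⟨ψ.range, ⟨fun c hc => ⟨_, hψ c hc⟩, ?_⟩, ⟨MonoidHom.ofInjective hker⟩⟩
  rw [← Nat.card_congr (MonoidHom.ofInjective hker).toEquiv]
  exact Cfsg.Agent.Lib.TC.D.SuzH.Main.simple_card.2

/-- `G₂(4)` acts extremely primitively on the cosets of the Hall-Janko group. -/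
theorem main {F : Type*} [Field F] [Fintype F] (hF : Fintype.card F = 4) :
    ∃ H : Subgroup (Cfsg.Lie.chevG2.group F), IsCoatom H ∧ Cfsg.Spor.IsoJ2 H ∧
      ∀ x : Cfsg.Lie.chevG2.group F, x ∉ H →
        IsCoatom ((H ⊓ H.map (MulAut.conj x).toMonoidHom).subgroupOf H) := by
  classical
  obtain ⟨e1⟩ := Cfsg.Agent.Lib.Chev.FieldCongr.nonempty_group_equiv Cfsg.Lie.chevG2
    (FiniteField.ringEquivOfCardEq (K := F) (K' := Cfsg.Agent.Lib.PrimeGraph.G24Field.K4)
      (by rw [hF, Cfsg.Agent.Lib.PrimeGraph.G24Field.K4.card_eq]))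
  obtain ⟨e2⟩ := Cfsg.Agent.Lib.TC.D.SuzH.Tgt.equiv_T
  obtain ⟨P, hP, ⟨e3⟩⟩ := exists_model
  let e : Cfsg.Lie.chevG2.group F ≃* P := e1.trans (e2.symm.trans e3)
  have hep : ∀ x : P, x ∉ stabilizer P p0 →
      IsCoatom ((stabilizer P p0 ⊓ (stabilizer P p0).map (MulAut.conj x).toMonoidHom).subgroupOf
        (stabilizer P p0)) :=
    fun x hx => ep_of p0 (hsub hP) x hx
  obtain ⟨h1, h2⟩ := transfer e (stabilizer P p0) (coatom0 hP) hep
  obtain ⟨f⟩ := iso_J2 hP
  exact ⟨_, h1, ⟨(comapEquiv e _).trans f⟩, h2⟩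

end Cfsg.Agent.Lib.G24J2
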